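import Cfsg.Agent.VecC.Tab

/-! Colourings of the blocks of an imprimitive module. -/

set_option autoImplicit false

namespace Cfsg.Lib.VecC

open Subgroup Cfsg.Lib.Base Cfsg.Lib.KCl

universe u

/-- Pairwise inequivalent vectors whose stabilizers have prescribed levels. -/
def Ty (G V : Type*) [Group G] [MulAction G V] {k : ℕ} (l : Fin k → ℕ) : Prop :=
  ∃ z : Fin k → V, (∀ i j (g : G), g • z i = z j → i = j) ∧
    ∀ i, Lv (MulAction.stabilizer G (z i)) V (l i)

/-- A colouring with class sizes `n` whose stabilizer has level `j i` on the class `i`. -/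
def Adm (G X : Type*) [Group G] [MulAction G X] {k : ℕ} (n j : Fin k → ℕ) : Prop :=
  ∃ col : X → Fin k, (∀ i, Nat.card {x // col x = i} = n i) ∧
    ∀ K : Subgroup G, (∀ g ∈ K, ∀ x, col (g • x) = col x) →
      ∀ x, ∀ g ∈ D K (j (col x)), g • x = x

theorem Ty.comp {G Γ V : Type*} [Group G] [Group Γ] [MulAction G V] [MulAction Γ V] {k : ℕ}
    {l : Fin k → ℕ} (h : Ty Γ V l) (f : G →* Γ) (hf : ∀ (g : G) (v : V), f g • v = g • v) :
    Ty G V l := by
  obtain ⟨z, h1, h2⟩ := h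
  exact ⟨z, fun i j g e => h1 i j (f g) ((hf g _).trans e),
    fun i => (h2 i).comp f hf fun g hg => (hf g _).trans hg⟩

theorem exists_col {X : Type*} [Finite X] {k : ℕ} (n : Fin k → ℕ) (hn : ∑ i, n i = Nat.card X)
    (B : Finset X) (ρ : Fin k) (hB : B.card + n ρ ≤ Nat.card X) :
    ∃ col : X → Fin k, (∀ i, Nat.card {x // col x = i} = n i) ∧ ∀ b ∈ B, col b ≠ ρ := by
  classical
  have := Fintype.ofFinite X
  obtain ⟨e⟩ : Nonempty (X ≃ Σ i, Fin (n i)) := Finite.card_eq.1 (by rw [← hn]; simp)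
  have h1 : ∀ (e : X ≃ Σ i, Fin (n i)) i, Nat.card {x // (e x).1 = i} = n i := fun e i =>
    (Nat.card_congr ((e.subtypeEquiv fun _ => Iff.rfl).trans (Equiv.sigmaSubtype i))).trans
      (Nat.card_fin _)
  obtain ⟨T, hT, h2⟩ := Finset.exists_subset_card_eq (s := Bᶜ) (n := n ρ) (by
    rw [Finset.card_compl, ← Nat.card_eq_fintype_card]; omega)
  obtain ⟨σ, hσ⟩ := Equiv.Perm.exists_map_finset_eq T (Finset.univ.filter fun x => (e x).1 = ρ)
    (by rw [h2, ← h1 e ρ, Nat.card_eq_fintype_card, Fintype.card_subtype])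
  refine ⟨fun x => (σ.trans e x).1, h1 _, fun b hb h => ?_⟩
  have h3 : σ b ∈ T.map σ.toEmbedding := by rw [hσ]; simpa using h
  exact Finset.mem_compl.1 (hT (by simpa using h3)) hb

theorem ps_mono {m n : ℕ} (h : m ≤ n) : ps m ≤ ps n := by
  unfold ps
  split_ifs <;> omega

section Adm

variable {G : Type u} [Group G] [Finite G] (hG : Group.IsSolvable G) {X : Type*} [MulAction G X]
  [Finite X] {k : ℕ}

include hG in
theorem fix_of_class {col : X → Fin k} {K : Subgroup G} (hK : ∀ g ∈ K, ∀ x, col (g • x) = col x)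
    {x : X} {m j : ℕ} (h : Nat.card {y // col y = col x} = m) (h7 : m ≤ 7) (hj : ps m ≤ j) :
    ∀ g ∈ D K j, g • x = x := by
  have h1 : (MulAction.stabilizer K x).index ≤ m := by
    rw [MulAction.index_stabilizer, ← h]
    refine Set.ncard_le_ncard (t := {y | col y = col x}) ?_
    rintro _ ⟨g, rfl⟩
    exact hK g g.2 x
  intro g hg
  obtain ⟨a, ha, rfl⟩ := D_lift K.subtype (K := ⊤) (fun k hk => ⟨⟨k, hk⟩, trivial, rfl⟩) _ g
    (D_anti K ((ps_mono h1).trans hj) hg)
  exact D_le_of_index _ K _ inferInstance rfl (h1.trans h7) ha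

/-- A base of size at most `β`. -/
def Bs (G X : Type*) [Group G] [MulAction G X] (β : ℕ) : Prop :=
  ∃ B : Finset X, B.card ≤ β ∧ ∀ g : G, (∀ b ∈ B, g • b = b) → ∀ x : X, g • x = x

/-- The numerical condition under which an admissible colouring exists. -/
def Ok (s β : ℕ) (n j : Fin k → ℕ) : Prop :=
  ∑ i, n i = s ∧ ((s ≤ 8 ∧ ∀ i, 3 ≤ j i) ∨ ∃ ρ, (β + n ρ ≤ s ∧ ∀ i, i ≠ ρ →
    n i ≤ 7 ∧ ps (n i) ≤ j i ∧ ps (n i) ≤ j ρ) ∨ (∀ i, n i ≤ 7 ∧ ps (n i) ≤ j i))

instance (s β : ℕ) (n j : Fin k → ℕ) : Decidable (Ok s β n j) := by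
  unfold Ok
  infer_instance

include hG in
theorem adm_of_ok [NeZero k] {β : ℕ} (hB : Bs G X β)
    (ha : Nat.card X ≤ 8 → Lv (⊤ : Subgroup G) X 3) {n j : Fin k → ℕ}
    (h : Ok (Nat.card X) β n j) : Adm G X n j := by
  obtain ⟨hn, h⟩ := h
  have h0 : ∀ ρ, (∅ : Finset X).card + n ρ ≤ Nat.card X := fun ρ => by
    rw [← hn, Finset.card_empty, zero_add]
    exact Finset.single_le_sum (fun _ _ => Nat.zero_le _) (Finset.mem_univ ρ)
  rcases h with h | ⟨ρ, ⟨h1, h2⟩ | h⟩
  · obtain ⟨col, hc, -⟩ := exists_col n hn ∅ 0 (h0 0)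
    exact ⟨col, hc, fun K _ x g hg => ((ha h.1).anti le_top).mono (h.2 _) g hg x⟩
  · obtain ⟨B, h3, h4⟩ := hB
    obtain ⟨col, hc, h5⟩ := exists_col n hn B ρ (by omega)
    refine ⟨col, hc, fun K hK x g hg => ?_⟩
    by_cases hx : col x = ρ
    · exact h4 g (fun b hb => fix_of_class hG hK (hc _) (h2 _ (h5 b hb)).1 (h2 _ (h5 b hb)).2.2 g
        (hx ▸ hg)) x
    · exact fix_of_class hG hK (hc _) (h2 _ hx).1 (h2 _ hx).2.1 g hg
  · obtain ⟨col, hc, -⟩ := exists_col n hn ∅ ρ (h0 ρ)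
    exact ⟨col, hc, fun K hK x => fix_of_class hG hK (hc _) (h _).1 (h _).2⟩

end Adm

theorem bs_affine {G H M I : Type*} [Group G] [Group H] [AddCommGroup M] [DistribMulAction H M]
    [MulAction G I] (e : I ≃ M) (he : ∀ g : G, ∃ (h : H) (m : M), ∀ c, e (g • c) = h • e c + m)
    {k : ℕ} (h : HasBase H M k) : Bs G I (k + 1) := by
  classical
  obtain ⟨x, hx⟩ := h
  refine ⟨insert (e.symm 0) (Finset.univ.image fun i => e.symm (x i)),
    (Finset.card_insert_le _ _).trans (Nat.add_le_add_right (Finset.card_image_le.trans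
      (by simp)) 1), fun g hg c => ?_⟩
  obtain ⟨a, m, hm⟩ := he g
  have h0 : m = 0 := by
    have := hm (e.symm 0)
    rw [hg _ (Finset.mem_insert_self _ _)] at this
    simpa using this.symm
  refine e.injective ?_
  rw [hm, h0, add_zero]
  refine hx a (fun i => ?_) _
  have := hm (e.symm (x i))
  rw [hg _ (Finset.mem_insert_of_mem (Finset.mem_image_of_mem _ (Finset.mem_univ i))), h0] at this
  simpa using this.symm

theorem ty_step {G V : Type*} [Group G] [Finite G] [AddCommGroup V] [DistribMulAction G V]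
    {H : Subgroup G} {W W' : AddSubgroup V} (hirr : Irr G V) (hW : Inv H W) (hd : Disjoint W W')
    (hout : ∀ g ∉ H, ∀ w ∈ W, g • w ∈ W') (hW0 : W ≠ ⊥) {k m : ℕ} {l : Fin k → ℕ}
    (hb : @Ty H W _ (resAct hW).toMulAction k l) {L : Fin m → ℕ} (n : Fin m → Fin k → ℕ)
    (hn : ∀ t t', n t = n t' → t = t') (hl : ∀ t i, l i ≤ L t)
    (hA : ∀ t, Adm G (G ⧸ H) (n t) fun i => L t - l i) : Ty G V L := by
  classical
  let _ := resAct hW
  have : Fintype (G ⧸ H) := Fintype.ofFinite _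
  obtain ⟨z, hz1, hz2⟩ := hb
  choose col hc1 hc2 using hA
  have comp : ∀ (x : G ⧸ H → W) (a : G) (d : G ⧸ H), a * d.out ∈ H →
      a • ∑ c, c.out • (x c : V) - (a * d.out) • (x d : V) ∈ W' := by
    intro x a d had
    rw [Finset.smul_sum, ← Finset.add_sum_erase _ _ (Finset.mem_univ d), mul_smul,
      add_sub_cancel_left]
    refine sum_mem fun c hc => ?_
    rw [← mul_smul]
    refine hout _ (fun h => (Finset.mem_erase.1 hc).1 ?_) _ (x c).2
    rw [← c.out_eq, ← d.out_eq]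
    refine QuotientGroup.eq.2 ?_
    simpa using H.mul_mem (H.inv_mem h) had
  have key : ∀ t t' (g : G), g • ∑ c, c.out • (z (col t c) : V) = ∑ c, c.out • (z (col t' c) : V) →
      ∀ d : G ⧸ H, (⟨_, out_mem g d⟩ : H) • z (col t d) = z (col t' (g • d)) := by
    intro t t' g hg d
    have h1 := comp (fun c => z (col t' c)) (g • d).out⁻¹ (g • d) (by simp)
    have h2 := comp (fun c => z (col t c)) ((g • d).out⁻¹ * g) d (out_mem g d)
    rw [mul_smul, hg] at h2
    have h3 := sub_mem h1 h2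
    rw [inv_mul_cancel, one_smul, sub_sub_sub_cancel_left] at h3
    exact Subtype.ext (sub_eq_zero.1 ((AddSubgroup.disjoint_def.1 hd)
      (sub_mem (hW ⟨_, out_mem g d⟩ _ (z (col t d)).2) (z (col t' (g • d))).2) h3))
  refine ⟨fun t => ∑ c, c.out • (z (col t c) : V), fun t t' g hg => hn _ _ (funext fun i => ?_),
    fun t g hg => block_triv hirr hW hW0 fun c => ?_⟩
  · rw [← hc1, ← hc1]
    exact Nat.card_congr ((MulAction.toPerm g).subtypeEquiv fun d => by
      rw [hz1 _ _ _ (key t t' g hg d)]; rfl)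
  · refine step_core hW (hc2 t (MulAction.stabilizer G (∑ c, c.out • (z (col t c) : V)))
      (fun a ha d => (hz1 _ _ _ (key t t a ha d)).symm) c)
      (fun a ha e => ?_) (hz2 (col t c)) g ?_
    · exact (key t t a ha c).trans (by rw [e])
    · rwa [Nat.sub_add_cancel (hl t _)]

end Cfsg.Lib.VecC
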