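import Cfsg.Agent.KCl.Main

/-! Derived series of a subgroup and the level at which it acts trivially. -/

set_option autoImplicit false

namespace Cfsg.Lib.VecC

open Subgroup Cfsg.Lib.Base Cfsg.Lib.KCl
open scoped commutatorElement

universe u

section Der

variable {G H : Type*} [Group G] [Group H]

/-- The derived series of a subgroup, inside the ambient group. -/
def D (K : Subgroup G) : ℕ → Subgroup G
  | 0 => K
  | n + 1 => ⁅D K n, D K n⁆

theorem D_succ (K : Subgroup G) (n : ℕ) : D K (n + 1) = ⁅D K n, D K n⁆ := rfl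

theorem D_add (K : Subgroup G) (a b : ℕ) : D K (a + b) = D (D K a) b := by
  induction b with
  | zero => rfl
  | succ b ih => rw [← add_assoc, D_succ, ih]; rfl

theorem D_rel (R : G → H → Prop) (h1 : R 1 1)
    (hm : ∀ a b c d, R a b → R c d → R (a * c) (b * d)) (hi : ∀ a b, R a b → R a⁻¹ b⁻¹)
    {K : Subgroup G} {L : Subgroup H} (h : ∀ g ∈ K, ∃ k ∈ L, R g k) (j : ℕ) :
    ∀ g ∈ D K j, ∃ k ∈ D L j, R g k := by
  induction j with
  | zero => exact h
  | succ j ih =>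
    let Y : Subgroup G :=
      { carrier := {g | ∃ k ∈ D L (j + 1), R g k}
        one_mem' := ⟨1, one_mem _, h1⟩
        mul_mem' := fun ⟨b, hb, e⟩ ⟨d, hd, e'⟩ => ⟨b * d, mul_mem hb hd, hm _ _ _ _ e e'⟩
        inv_mem' := fun ⟨b, hb, e⟩ => ⟨b⁻¹, inv_mem hb, hi _ _ e⟩ }
    refine (commutator_le.2 fun a ha b hb => ?_ : D K (j + 1) ≤ Y)
    obtain ⟨c, hc, e⟩ := ih a ha
    obtain ⟨d, hd, e'⟩ := ih b hb
    exact ⟨⁅c, d⁆, commutator_mem_commutator hc hd,
      hm _ _ _ _ (hm _ _ _ _ (hm _ _ _ _ e e') (hi _ _ e)) (hi _ _ e')⟩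

theorem D_map (f : G →* H) {K : Subgroup G} {L : Subgroup H} (h : ∀ g ∈ K, f g ∈ L) (j : ℕ) :
    ∀ g ∈ D K j, f g ∈ D L j := fun g hg => by
  obtain ⟨k, hk, e⟩ := D_rel (fun g k => f g = k) (map_one f)
    (fun a b c d e e' => by rw [map_mul, e, e']) (fun a b e => by rw [map_inv, e])
    (fun g hg => ⟨_, h g hg, rfl⟩) j g hg
  exact e ▸ hk

theorem D_lift (f : G →* H) {K : Subgroup G} {L : Subgroup H} (h : ∀ k ∈ L, ∃ g ∈ K, f g = k)
    (j : ℕ) : ∀ k ∈ D L j, ∃ g ∈ D K j, f g = k :=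
  D_rel (fun k g => f g = k) (map_one f) (fun a b c d e e' => by rw [map_mul, e, e'])
    (fun a b e => by rw [map_inv, e]) h j

theorem D_mono {K L : Subgroup G} (h : K ≤ L) (j : ℕ) : D K j ≤ D L j :=
  D_map (MonoidHom.id G) h j

theorem D_le (K : Subgroup G) (j : ℕ) : D K j ≤ K := by
  induction j with
  | zero => exact le_rfl
  | succ j ih =>
    exact commutator_le.2 fun a ha b hb =>
      mul_mem (mul_mem (mul_mem (ih ha) (ih hb)) (inv_mem (ih ha))) (inv_mem (ih hb))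

theorem D_anti (K : Subgroup G) {i j : ℕ} (h : i ≤ j) : D K j ≤ D K i := by
  obtain ⟨t, rfl⟩ := Nat.exists_eq_add_of_le h
  rw [D_add]
  exact D_le _ _

theorem D_top (j : ℕ) : D (⊤ : Subgroup G) j = derivedSeries G j := by
  induction j with
  | zero => rfl
  | succ j ih => rw [D_succ, ih]; rfl

instance D_normal (j : ℕ) : (D (⊤ : Subgroup G) j).Normal := by
  rw [D_top]
  exact derivedSeries_normal G j

theorem D_succ_le {K Y : Subgroup G} {j : ℕ} (h : ∀ a ∈ D K j, ∀ b ∈ D K j, ⁅a, b⁆ ∈ Y) :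
    D K (j + 1) ≤ Y := commutator_le.2 h

/-- The `j`-th derived subgroup of `K` acts trivially on `X`. -/
def Lv (K : Subgroup G) (X : Type*) [MulAction G X] (j : ℕ) : Prop :=
  ∀ g ∈ D K j, ∀ x : X, g • x = x

variable {X : Type*} [MulAction G X] {K : Subgroup G}

theorem Lv.mono {i j : ℕ} (h : Lv K X i) (hij : i ≤ j) : Lv K X j :=
  fun g hg => h g (D_anti K hij hg)

theorem Lv.anti {L : Subgroup G} {j : ℕ} (h : Lv K X j) (hL : L ≤ K) : Lv L X j :=
  fun g hg => h g (D_mono hL j hg)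

theorem Lv.comp [MulAction H X] {L : Subgroup H} {j : ℕ} (h : Lv L X j) (f : G →* H)
    (hf : ∀ (g : G) (x : X), f g • x = g • x) (hK : ∀ g ∈ K, f g ∈ L) : Lv K X j :=
  fun g hg x => by rw [← hf]; exact h _ (D_map f hK j g hg) x

theorem Lv.succ {j : ℕ} (h : ∀ a ∈ D K j, ∀ b ∈ D K j, ∀ x : X, ⁅a, b⁆ • x = x) :
    Lv K X (j + 1) := fun _ hg x =>
  (D_succ_le (Y := MulAction.stabilizer G x) fun a ha b hb => h a ha b hb x) hg

theorem Lv.of_le_bot {j : ℕ} (h : D K j ≤ ⊥) : Lv K X j := fun g hg x => by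
  rw [mem_bot.1 (h hg), one_smul]

theorem derivedSeries_eq_bot [FaithfulSMul G X] {j : ℕ} (h : Lv K X j) :
    derivedSeries K j = ⊥ := by
  rw [← D_top, eq_bot_iff]
  intro g hg
  refine Subtype.ext (FaithfulSMul.eq_of_smul_eq_smul (α := X) fun x => ?_)
  simpa using h _ (D_map K.subtype (fun g _ => g.2) j g hg) x

end Der

section Mod

variable {G V : Type*} [Group G] [AddCommGroup V] [DistribMulAction G V]

theorem exists_irr [Finite V] {Y : AddSubgroup V} (hY : Inv G Y) (h0 : Y ≠ ⊥) :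
    ∃ (T : AddSubgroup V) (hT : Inv G T), T ≤ Y ∧ @Irr G _ T _ (resAct hT) := by
  obtain ⟨T, h1, hT⟩ := exists_minimal_le_of_wellFoundedLT (fun T => Inv G T ∧ T ≠ ⊥) Y ⟨hY, h0⟩
  let _ := resAct hT.1.1
  refine ⟨T, hT.1.1, h1, (AddSubgroup.nontrivial_iff_ne_bot T).2 hT.1.2, fun U hU => ?_⟩
  by_cases hU0 : U = ⊥
  · exact Or.inl hU0
  refine Or.inr (eq_top_iff.2 fun t _ => ?_)
  have h2 : Inv G (U.map T.subtype) := by
    rintro g _ ⟨u, hu, rfl⟩
    exact ⟨g • u, hU g u hu, rfl⟩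
  obtain ⟨u, hu, e⟩ := hT.2 (y := U.map T.subtype) ⟨h2, fun e => hU0
    ((AddSubgroup.map_eq_bot_iff_of_injective U T.subtype_injective).1 e)⟩
    (AddSubgroup.map_subtype_le U) t.2
  exact (Subtype.ext e : u = t) ▸ hu

theorem triv_of_cr [Finite V] (h : CR G V) (K : Subgroup G) [hK : K.Normal]
    (hT : ∀ (T : AddSubgroup V) (hT : Inv G T), @Irr G _ T _ (resAct hT) →
      ∀ g ∈ K, ∀ t ∈ T, g • t = t) : ∀ g ∈ K, ∀ v : V, g • v = v := by
  let Y : AddSubgroup V :=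
    { carrier := {v | ∀ g ∈ K, g • v = v}
      zero_mem' := fun g _ => smul_zero g
      add_mem' := fun ha hb g hg => by rw [smul_add, ha g hg, hb g hg]
      neg_mem' := fun ha g hg => by rw [smul_neg, ha g hg] }
  obtain ⟨W, h1, h2, h3⟩ := h Y fun a v hv g hg => by
    have := hv _ (hK.conj_mem' g hg a)
    rwa [mul_smul, mul_smul, inv_smul_eq_iff] at this
  by_cases h0 : W = ⊥
  · rw [h0, sup_bot_eq] at h3
    exact fun g hg v => (h3.ge trivial : v ∈ Y) g hg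
  obtain ⟨T, h4, h5, h6⟩ := exists_irr h1 h0
  have h7 : T ≤ Y ⊓ W := fun t ht => ⟨fun g hg => hT T h4 h6 g hg t ht, h5 ht⟩
  rw [h2, le_bot_iff] at h7
  exact absurd h7 ((AddSubgroup.nontrivial_iff_ne_bot T).1 h6.1)

theorem lv_of_cr [Finite V] (h : CR G V) {j : ℕ}
    (hT : ∀ (T : AddSubgroup V) (hT : Inv G T), @Irr G _ T _ (resAct hT) →
      @Lv G _ ⊤ T (resAct hT).toMulAction j) : Lv (⊤ : Subgroup G) V j :=
  triv_of_cr h _ fun T h1 h2 g hg t ht => congrArg Subtype.val (hT T h1 h2 g hg ⟨t, ht⟩)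

theorem exists_vec [Finite V] (h : CR G V) {j : ℕ}
    (hT : ∀ (T : AddSubgroup V) (hT : Inv G T), @Irr G _ T _ (resAct hT) →
      ∃ t ∈ T, ∀ g ∈ D (MulAction.stabilizer G t) j, ∀ w ∈ T, g • w = w) :
    ∃ v : V, Lv (MulAction.stabilizer G v) V j := by
  obtain ⟨Y, -, hY⟩ := Finite.exists_le_maximal (p := fun Y : AddSubgroup V => Inv G Y ∧
    ∃ t ∈ Y, ∀ g ∈ D (MulAction.stabilizer G t) j, ∀ w ∈ Y, g • w = w) (a := ⊥)
    ⟨fun g v hv => by rw [AddSubgroup.mem_bot.1 hv, smul_zero]; exact zero_mem _, 0, zero_mem _,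
      fun g _ w hw => by rw [AddSubgroup.mem_bot.1 hw, smul_zero]⟩
  obtain ⟨h1, y, hy, h2⟩ := hY.1
  obtain ⟨W, h3, h4, h5⟩ := h Y h1
  by_cases h0 : W = ⊥
  · rw [h0, sup_bot_eq] at h5
    exact ⟨y, fun g hg w => h2 g hg w (h5.ge trivial)⟩
  obtain ⟨T, h6, h7, h8⟩ := exists_irr h3 h0
  obtain ⟨t, ht, h9⟩ := hT T h6 h8
  have key : ∀ g : G, g • (y + t) = y + t → g • y = y ∧ g • t = t := fun g hg => by
    have a1 : g • y - y = t - g • t := by
      rw [smul_add] at hg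
      rw [sub_eq_sub_iff_add_eq_add, hg, add_comm]
    have a2 : g • y - y ∈ Y ⊓ W :=
      ⟨Y.sub_mem (h1 g y hy) hy, by rw [a1]; exact h7 (T.sub_mem ht (h6 g t ht))⟩
    rw [h4, AddSubgroup.mem_bot] at a2
    exact ⟨sub_eq_zero.1 a2, (sub_eq_zero.1 (a1 ▸ a2)).symm⟩
  have h10 := hY.2 (y := Y ⊔ T) ⟨fun g v hv => ?_, y + t, AddSubgroup.add_mem_sup hy ht,
    fun g hg w hw => ?_⟩ le_sup_left
  · have h11 : T ≤ Y ⊓ W := le_inf (le_sup_right.trans h10) h7
    rw [h4, le_bot_iff] at h11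
    exact absurd h11 ((AddSubgroup.nontrivial_iff_ne_bot T).1 h8.1)
  · obtain ⟨a, ha, b, hb, rfl⟩ := AddSubgroup.mem_sup.1 hv
    rw [smul_add]
    exact AddSubgroup.add_mem_sup (h1 g a ha) (h6 g b hb)
  · obtain ⟨a, ha, b, hb, rfl⟩ := AddSubgroup.mem_sup.1 hw
    rw [smul_add, h2 g (D_mono (fun g hg => (key g hg).1) j hg) a ha,
      h9 g (D_mono (fun g hg => (key g hg).2) j hg) b hb]

variable {H : Subgroup G} {W W' : AddSubgroup V}

theorem block_triv (hirr : Irr G V) (hW : Inv H W) (hW0 : W ≠ ⊥) {g : G}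
    (h : ∀ d : G ⧸ H, ∀ w ∈ W, g • d.out • w = d.out • w) (v : V) : g • v = v := by
  let Y : AddSubgroup V :=
    { carrier := {v | ∀ a : G, g • a • v = a • v}
      zero_mem' := fun a => by rw [smul_zero, smul_zero]
      add_mem' := fun ha hb a => by rw [smul_add, smul_add, ha a, hb a]
      neg_mem' := fun ha a => by rw [smul_neg, smul_neg, ha a] }
  have hWY : W ≤ Y := by
    intro w hw a
    obtain ⟨k, hk⟩ := QuotientGroup.mk_out_eq_mul H a
    have := h (a : G ⧸ H) _ (hW k⁻¹ w hw)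
    rwa [hk, Subgroup.smul_def, ← mul_smul (a * k), Subgroup.coe_inv, mul_inv_cancel_right]
      at this
  rcases hirr.2 Y (fun a v hv a' => by rw [← mul_smul a']; exact hv _) with e | e
  · rw [e, le_bot_iff] at hWY
    exact absurd hWY hW0
  · simpa using (e.ge trivial : v ∈ Y) 1

theorem out_mem (g : G) (d : G ⧸ H) : (g • d).out⁻¹ * g * d.out ∈ H := by
  rw [mul_assoc, ← QuotientGroup.eq, QuotientGroup.out_eq', ← smul_eq_mul,
    ← MulAction.Quotient.smul_mk, QuotientGroup.out_eq']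

theorem step_core (hW : Inv H W) {K : Subgroup G} {c : G ⧸ H} {j l : ℕ}
    (hj : ∀ g ∈ D K j, g • c = c) {L : Subgroup H}
    (hL : ∀ g ∈ K, g • c = c → (⟨_, out_mem g c⟩ : H) ∈ L)
    (hl : @Lv H _ L W (resAct hW).toMulAction l) :
    ∀ g ∈ D K (j + l), ∀ w ∈ W, g • c.out • w = c.out • w := by
  intro g hg w hw
  rw [D_add] at hg
  obtain ⟨k, hk, e⟩ := D_rel (fun (g : G) (k : H) => (k : G) = c.out⁻¹ * g * c.out) (by simp)
    (fun a b a' b' e e' => by rw [coe_mul, e, e']; group)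
    (fun a b e => by rw [coe_inv, e]; group) (K := D K j) (L := L)
    (fun g hg => ⟨_, hL g (D_le K j hg) (hj g hg), by simp only [hj g hg]⟩) l g hg
  have h1 : (k : G) • w = w := congrArg Subtype.val (hl k hk ⟨w, hw⟩)
  rwa [e, mul_smul, mul_smul, inv_smul_eq_iff] at h1

theorem card_le_pow [Finite G] [Finite V] (hirr : Irr G V) (hW : Inv H W) (hW0 : W ≠ ⊥) :
    Nat.card V ≤ Nat.card W ^ H.index := by
  classical
  have := Fintype.ofFinite (G ⧸ H)
  rw [index_eq_card, ← Nat.card_fun]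
  let f : (G ⧸ H → W) →+ V := AddMonoidHom.mk' (fun x => ∑ c, c.out • (x c : V)) fun x y => by
    simp [smul_add, Finset.sum_add_distrib]
  have h1 : ∀ (c : G ⧸ H), ∀ w ∈ W, c.out • w ∈ f.range := fun c w hw =>
    ⟨Pi.single c ⟨w, hw⟩, by
      change ∑ d, d.out • ((Pi.single c ⟨w, hw⟩ : G ⧸ H → W) d : V) = _
      rw [Finset.sum_eq_single c (fun d _ hd => by simp [hd]) (by simp)]
      simp⟩
  refine Nat.card_le_card_of_surjective f (AddMonoidHom.range_eq_top.1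
    ((hirr.2 _ ?_).resolve_left fun e => hW0 (eq_bot_iff.2 fun w hw => ?_)))
  · rintro g _ ⟨x, rfl⟩
    change g • ∑ c, c.out • (x c : V) ∈ _
    rw [Finset.smul_sum]
    refine sum_mem fun c _ => ?_
    have := h1 (g • c) _ (hW ⟨_, out_mem g c⟩ _ (x c).2)
    rwa [Subgroup.smul_def, mul_smul, mul_smul, smul_inv_smul] at this
  · have := h1 ((1 : G) : G ⧸ H) w hw
    rwa [e, AddSubgroup.mem_bot, smul_eq_zero_iff_eq] at this

theorem lv_affine {G H M I : Type*} [Group G] [Group H] [AddCommGroup M] [DistribMulAction H M]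
    [MulAction G I] (e : I ≃ M) (he : ∀ g : G, ∃ (h : H) (m : M), ∀ c, e (g • c) = h • e c + m)
    {j : ℕ} (h : Lv (⊤ : Subgroup H) M j) : Lv (⊤ : Subgroup G) I (j + 1) := by
  have key := D_rel (fun (g : G) (k : H) => ∃ m : M, ∀ c, e (g • c) = k • e c + m)
    ⟨0, by simp⟩
    (fun a b c d ⟨m, hm⟩ ⟨n, hn⟩ => ⟨b • n + m, fun x => by
      rw [mul_smul, hm, hn, smul_add, mul_smul, add_assoc]⟩)
    (fun a b ⟨m, hm⟩ => ⟨-(b⁻¹ • m), fun x => by
      have := hm (a⁻¹ • x)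
      rw [smul_inv_smul] at this
      rw [this, smul_add, inv_smul_smul, add_neg_cancel_right]⟩)
    (K := ⊤) (L := ⊤) (fun g _ => (he g).imp fun _ hk => ⟨trivial, hk⟩) j
  refine Lv.succ fun a ha b hb x => ?_
  obtain ⟨k, hk, m, hm⟩ := key a ha
  obtain ⟨k', hk', n, hn⟩ := key b hb
  simp only [h k hk, h k' hk'] at hm hn
  have h1 : ∀ y : I, a • b • y = b • a • y := fun y => e.injective (by
    rw [hm, hn, hn, hm, add_right_comm])
  rw [commutatorElement_def, mul_smul, mul_smul, mul_smul, h1, smul_inv_smul, smul_inv_smul]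

end Mod

end Cfsg.Lib.VecC
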