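import Cfsg.Agent.VecC.Col

/-! The imprimitive step. -/

set_option autoImplicit false

namespace Cfsg.Lib.VecC

open Subgroup Cfsg.Lib.Base Cfsg.Lib.KCl

universe u

/-- The base size used for a primitive solvable group of degree `s`. -/
def bs (s : ℕ) : ℕ := if s = 5 ∨ s = 7 ∨ s = 11 then 2 else 4

theorem bs_le (s : ℕ) : bs s ≤ 4 := by
  unfold bs
  split_ifs <;> omega

/-- Class sizes that turn levels `l` into levels `L`. -/
def Cert (s : ℕ) {k m : ℕ} (l : Fin k → ℕ) (L : Fin m → ℕ) : Prop :=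
  ∃ n : Fin m → Fin k → ℕ, (∀ t t', n t = n t' → t = t') ∧
    ∀ t, Ok s (bs s) (n t) fun i => L t - l i

theorem cert_A {s : ℕ} (hs : 2 ≤ s) :
    Cert s ![6, 6] ![8, 7, 7] ∨ Cert s ![6, 6] fun _ : Fin 5 => 9 := by
  by_cases h : s < 12
  · interval_cases s
    · exact Or.inl ⟨![![2, 0], ![1, 1], ![0, 2]], by decide, by decide⟩
    · exact Or.inl ⟨![![3, 0], ![2, 1], ![1, 2]], by decide, by decide⟩
    · exact Or.inr ⟨fun t => ![t, 4 - t], by decide, by decide⟩
    · exact Or.inr ⟨fun t => ![t, 5 - t], by decide, by decide⟩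
    · exact Or.inr ⟨fun t => ![t, 6 - t], by decide, by decide⟩
    · exact Or.inr ⟨fun t => ![t, 7 - t], by decide, by decide⟩
    · exact Or.inr ⟨fun t => ![t, 8 - t], by decide, by decide⟩
    · exact Or.inr ⟨fun t => ![t + 3, 6 - t], by decide, by decide⟩
    · exact Or.inr ⟨fun t => ![t + 3, 7 - t], by decide, by decide⟩
    · exact Or.inr ⟨fun t => ![t + 3, 8 - t], by decide, by decide⟩
  obtain ⟨r, rfl⟩ := Nat.exists_eq_add_of_le' (not_lt.1 h)
  have := bs_le (r + 12)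
  refine Or.inr ⟨![![4, r + 8], ![5, r + 7], ![6, r + 6], ![7, r + 5], ![r + 8, 4]],
    fun t t' e => ?_, fun t => ?_⟩
  · have e0 := congrFun e 0
    fin_cases t <;> fin_cases t' <;> simp at e0 ⊢
  · refine ⟨by fin_cases t <;> simp <;> omega, Or.inr ⟨![1, 1, 1, 1, 0] t, Or.inl ⟨?_, ?_⟩⟩⟩
    · fin_cases t <;> simp <;> omega
    · intro i
      fin_cases t <;> fin_cases i <;> simp [ps]

theorem cert_B {s : ℕ} (hs : 2 ≤ s) : Cert s ![8, 7, 7] fun _ : Fin 5 => 9 := by
  by_cases h : s < 8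
  · interval_cases s
    · exact ⟨![![0, 0, 2], ![0, 1, 1], ![0, 2, 0], ![1, 0, 1], ![1, 1, 0]], by decide, by decide⟩
    · exact ⟨![![0, 0, 3], ![0, 1, 2], ![0, 2, 1], ![0, 3, 0], ![1, 1, 1]], by decide, by decide⟩
    · exact ⟨![![0, 1, 3], ![0, 2, 2], ![0, 3, 1], ![1, 1, 2], ![1, 2, 1]], by decide, by decide⟩
    · exact ⟨![![0, 2, 3], ![0, 3, 2], ![1, 2, 2], ![1, 1, 3], ![1, 3, 1]], by decide, by decide⟩
    · exact ⟨![![0, 3, 3], ![1, 2, 3], ![1, 3, 2], ![2, 2, 2], ![2, 1, 3]], by decide, by decide⟩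
    · exact ⟨![![1, 3, 3], ![2, 2, 3], ![2, 3, 2], ![0, 2, 5], ![0, 5, 2]], by decide, by decide⟩
  obtain ⟨r, rfl⟩ := Nat.exists_eq_add_of_le' (not_lt.1 h)
  have := bs_le (r + 8)
  refine ⟨![![1, 3, r + 4], ![2, 2, r + 4], ![2, 3, r + 3], ![1, r + 4, 3], ![2, r + 4, 2]],
    fun t t' e => ?_, fun t => ?_⟩
  · have e0 := congrFun e 0
    have e1 := congrFun e 1
    fin_cases t <;> fin_cases t' <;> simp at e0 e1 ⊢
  · refine ⟨by fin_cases t <;> simp [Fin.sum_univ_succ] <;> omega,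
      Or.inr ⟨![2, 2, 2, 1, 1] t, Or.inl ⟨?_, ?_⟩⟩⟩
    · fin_cases t <;> simp <;> omega
    · intro i
      fin_cases t <;> fin_cases i <;> simp [ps]

theorem cert_C {s : ℕ} (hs : 2 ≤ s) : Cert s (fun _ : Fin 5 => 9) fun _ : Fin 5 => 9 := by
  by_cases h : s < 6
  · interval_cases s
    · exact ⟨fun t i => if i = t ∨ i = t + 1 then 1 else 0, by decide, by decide⟩
    · exact ⟨fun t i => if i = t ∨ i = t + 1 then 0 else 1, by decide, by decide⟩
    · exact ⟨fun t i => if i = t then 0 else 1, by decide, by decide⟩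
    · exact ⟨fun t i => if i = t then 2 else if i = t + 1 then 0 else 1, by decide, by decide⟩
  obtain ⟨r, rfl⟩ := Nat.exists_eq_add_of_le' (not_lt.1 h)
  have := bs_le (r + 6)
  refine ⟨fun t i => if i = t then r + 2 else 1, fun t t' e => ?_, fun t => ?_⟩
  · by_contra h
    simpa [h] using congrFun e t
  · refine ⟨by fin_cases t <;> simp [Fin.sum_univ_succ] <;> omega,
      Or.inr ⟨t, Or.inl ⟨by simp; omega, fun i hi => by simp [hi, ps]⟩⟩⟩

/-- The inductive invariant. -/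
def Tri (G V : Type*) [Group G] [MulAction G V] : Prop :=
  Ty G V ![6, 6] ∨ Ty G V ![8, 7, 7] ∨ Ty G V fun _ : Fin 5 => 9

variable {G V : Type u} [Group G] [Finite G] [AddCommGroup V] [DistribMulAction G V]
  {H : Subgroup G} {W W' : AddSubgroup V}

theorem bs_coatom (hG : Group.IsSolvable G) (hH : IsCoatom H) : Bs G (G ⧸ H) (bs H.index) := by
  obtain ⟨M, _, _, e, hM, he⟩ := exists_affine hG hH
  have : Finite M := Finite.of_equiv _ e
  have h1 : Nat.card M = H.index := (Nat.card_congr e).symm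
  unfold bs
  split_ifs with h
  · have : Fact H.index.Prime := ⟨by rcases h with h | h | h <;> rw [h] <;> norm_num⟩
    exact bs_affine e he (hasBase_one_of_prime h1)
  · exact bs_affine e he (concl_of_primCase primCase inferInstance (Base.Irr.cr hM)).1

theorem tri_step (hG : Group.IsSolvable G) (hH : IsCoatom H) (hirr : Irr G V) (hW : Inv H W)
    (hd : Disjoint W W') (hout : ∀ g ∉ H, ∀ w ∈ W, g • w ∈ W') (hW0 : W ≠ ⊥)
    (h : @Tri H W _ (resAct hW).toMulAction) : Tri G V := by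
  have h2 := (index_core_le hG hH).1
  have key : ∀ {k m : ℕ} [NeZero k] {l : Fin k → ℕ} {L : Fin m → ℕ},
      @Ty H W _ (resAct hW).toMulAction k l → (∀ t i, l i ≤ L t) → Cert H.index l L →
        Ty G V L := fun hb hl ⟨n, h3, h4⟩ =>
    ty_step hirr hW hd hout hW0 hb n h3 hl fun t => adm_of_ok hG (bs_coatom hG hH)
      (fun h8 => (lv_coatom hG hH (h8.trans_lt (by norm_num))).mono
        (Nat.succ_le_succ (dd_mono h8))) (h4 t)
  rcases h with h | h | h
  · exact Or.inr ((cert_A h2).imp (key h (by decide)) (key h (by decide)))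
  · exact Or.inr (Or.inr (key h (by decide) (cert_B h2)))
  · exact Or.inr (Or.inr (key h (by decide) (cert_C h2)))

theorem odd_step (hG : Group.IsSolvable G) (ho : Odd (Nat.card G)) (hH : IsCoatom H)
    (hirr : Irr G V) (hW : Inv H W) (hd : Disjoint W W') (hout : ∀ g ∉ H, ∀ w ∈ W, g • w ∈ W')
    (hW0 : W ≠ ⊥) (h : @Ty H W _ (resAct hW).toMulAction 2 fun _ => 1) :
    Ty G V fun _ : Fin 2 => 1 := by
  obtain ⟨M, _, _, e, hM, he⟩ := exists_affine hG hH
  have : Finite M := Finite.of_equiv _ e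
  have hs : Odd (Nat.card (G ⧸ H)) := ho.of_dvd_nat H.index_dvd_card
  have hoH := ho.of_dvd_nat H.card_subgroup_dvd_card
  obtain ⟨c, hc⟩ := exists_affDist_two hoH (fun v hv => AddMonoid.addOrderOf_eq_one_iff.1
    (Nat.eq_one_of_dvd_coprimes (Nat.coprime_two_left.2 (Nat.card_congr e ▸ hs))
      (addOrderOf_dvd_of_nsmul_eq_zero (by rwa [two_nsmul])) (addOrderOf_dvd_natCard v)))
    ((concl_of_primCase primCase inferInstance (Base.Irr.cr hM)).2 (Or.inl hoH))
  have hc' := dist_of_affDist e he hc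
  let col : Fin 2 → G ⧸ H → Fin 2 := fun t x => (c ∘ e) x + t
  refine ty_step hirr hW hd hout hW0 h (fun t i => Nat.card {x // col t x = i}) ?_
    (fun _ _ => le_rfl) fun t => ⟨col t, fun _ => rfl, fun K hK x g hg =>
      hc' g (fun y => add_right_cancel (hK g hg y)) x⟩
  have h1 : Nat.card {x // col 0 x = 0} ≠ Nat.card {x // col 1 x = 0} := fun e => by
    classical
    have h2 : ∀ a : Fin 2, a + 1 = 0 ↔ ¬ a + 0 = 0 := by decide
    have h3 := Nat.card_congr (Equiv.sumCompl fun x => col 0 x = 0)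
    rw [Nat.card_sum, ← Nat.card_congr (Equiv.subtypeEquivRight fun x => h2 _ :
      {x // col 1 x = 0} ≃ _), ← e] at h3
    rw [← h3] at hs
    exact Nat.not_even_iff_odd.2 hs ⟨_, rfl⟩
  intro t t' e
  fin_cases t <;> fin_cases t'
  · rfl
  · exact absurd (congrFun e 0) h1
  · exact absurd (congrFun e 0).symm h1
  · rfl

end Cfsg.Lib.VecC
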