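import Cfsg.Agent.VecC.D

/-! Derived length of small solvable linear groups and permutation groups. -/

set_option autoImplicit false

namespace Cfsg.Lib.VecC

open Subgroup Cfsg.Lib.Base Cfsg.Lib.Base.Setup Cfsg.Lib.KCl
open scoped commutatorElement

universe u

section Setup

variable {K V : Type*} {Γ : Type u} [Field K] [AddCommGroup V] [Module K V] [Group Γ]
  [DistribMulAction Γ V] [Nontrivial V] [Finite K] {S : Setup K V Γ} {N : Subgroup Γ}

theorem D_one_le_A (S : Setup K V Γ) : D ⊤ 1 ≤ S.A := by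
  obtain ⟨γ, hγ⟩ := exists_gen K
  have key : ∀ a : Γ, ∃ n : ℕ, MulAut.conj a (S.ι γ) = S.ι γ ^ n := fun a => by
    obtain ⟨u, hu⟩ := S.normal.conj_mem _ (ι_mem γ) a
    obtain ⟨n, rfl⟩ := hγ u
    exact ⟨n, by rw [← map_pow, hu]; rfl⟩
  refine D_succ_le fun a _ b _ => ?_
  obtain ⟨i, hi⟩ := key a⁻¹
  obtain ⟨j, hj⟩ := key b⁻¹
  have h1 : MulAut.conj a⁻¹ (MulAut.conj b⁻¹ (S.ι γ)) = MulAut.conj b⁻¹ (MulAut.conj a⁻¹ (S.ι γ)) := by
    rw [hj, hi, map_pow, map_pow, hi, hj, ← pow_mul, ← pow_mul, mul_comm]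
  refine mem_A_of_gen hγ ?_
  simp only [MulAut.conj_apply] at h1
  calc _ = a * b * (a⁻¹ * (b⁻¹ * S.ι γ * b⁻¹⁻¹) * a⁻¹⁻¹) * b⁻¹ * a⁻¹ := by group
    _ = _ := by rw [h1]; group

theorem index_A_dvd [FaithfulSMul Γ V] (S : Setup K V Γ) {p f : ℕ} (hp : p.Prime)
    (hK : Nat.card K = p ^ f) : S.A.index ∣ f := by
  have := Fact.mk hp
  have := Fintype.ofFinite K
  have : CharP K p := charP_of_card_eq_prime_pow (by rw [← hK, Nat.card_eq_fintype_card])
  let _ := ZMod.algebra K p
  have h1 : Module.finrank (ZMod p) K = f := Nat.pow_right_injective hp.two_le (by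
    have := Module.natCard_eq_pow_finrank (K := ZMod p) (V := K)
    rw [Nat.card_zmod, hK] at this
    exact this.symm)
  obtain ⟨v, hv⟩ := exists_ne (0 : V)
  choose σ h0 hσ using S.exists_smul_smul
  have hg : ∀ g : Γ, g • v ≠ 0 := fun g e => hv ((smul_eq_zero_iff_eq g).1 e)
  let τ : Γ → K →+* K := fun g =>
    { toFun := σ g
      map_one' := eq_of_smul_eq (hg g) (by rw [← hσ, one_smul, one_smul])
      map_mul' := fun a b => eq_of_smul_eq (hg g) (by rw [← hσ, mul_smul, hσ, hσ, mul_smul])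
      map_zero' := (h0 g 0).2 rfl
      map_add' := fun a b => eq_of_smul_eq (hg g) (by
        rw [← hσ, add_smul, smul_add, hσ, hσ, add_smul]) }
  let ρ : Γ →* (K →ₐ[ZMod p] K) :=
    { toFun := fun g => ⟨τ g, fun x =>
        RingHom.congr_fun (RingHom.ext_zmod ((τ g).comp (algebraMap _ K)) _) x⟩
      map_one' := AlgHom.ext fun c => eq_of_smul_eq (hg 1) (by
        change σ 1 c • _ = c • _
        rw [← hσ, one_smul, one_smul])
      map_mul' := fun a b => AlgHom.ext fun c => eq_of_smul_eq (hg (a * b)) (by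
        change σ (a * b) c • _ = σ a (σ b c) • _
        rw [← hσ, mul_smul, hσ, hσ, mul_smul]) }
  have h2 : ρ.toHomUnits.ker = S.A := by
    ext g
    rw [MonoidHom.mem_ker, Units.ext_iff]
    refine ⟨fun e => ?_, fun e => AlgHom.ext fun c => eq_of_smul_eq (hg g) ?_⟩
    · rintro _ ⟨u, rfl⟩
      refine FaithfulSMul.eq_of_smul_eq_smul (α := V) fun w => ?_
      have e1 : σ g u = u := DFunLike.congr_fun e (u : K)
      rw [mul_smul, mul_smul, S.ι_smul, S.ι_smul, hσ, e1]
    · change σ g c • _ = c • _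
      rw [← hσ, Setup.smul_smul e]
  rw [← h2, index_ker, ← h1, ← IsGalois.card_aut_eq_finrank,
    ← Nat.card_congr (AlgEquiv.algHomUnitsEquiv (ZMod p) K).toEquiv]
  exact card_subgroup_dvd_card _

omit [Nontrivial V] [Finite K] in
theorem D_le_bot {L : Subgroup Γ} {j : ℕ} (h : D L j ≤ S.U) : D L (j + 1) ≤ ⊥ :=
  D_succ_le fun _ ha _ hb => commutatorElement_eq_one_iff_mul_comm.2 (U_le_A (h hb) _ (h ha))

variable (h : Big S N) {Ω : Type*} [AddCommGroup Ω] [Finite Ω]
  [DistribMulAction (⊤ : Subgroup Γ) Ω] {pr : Γ → Ω} (s : Sec N S.U ⊤ pr)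
  {B : Ω →+ Ω →+ Additive Kˣ} (hB : ∀ a ∈ N, ∀ b ∈ N, B (pr a) (pr b) = Additive.ofMul (S.cm a b))

include h s hB in
theorem D_le_N {d : ℕ} (hd : Lv (⊤ : Subgroup (⊤ : Subgroup Γ)) Ω d) (h1 : 1 ≤ d) : D ⊤ d ≤ N :=
  fun g hg => (h.smul_eq_iff s hB ⟨g, trivial⟩ (D_one_le_A S (D_anti _ h1 hg))).1
    (hd _ (D_map topEquiv.symm.toMonoidHom (fun _ _ => mem_top _) d g hg))

omit [Nontrivial V] [Finite K] in
include h in
theorem D_le_U {L : Subgroup Γ} {d : ℕ} (hd : D ⊤ d ≤ N) : D L (d + 1) ≤ S.U :=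
  D_succ_le fun a ha b hb => h.comm a (hd (D_mono le_top d ha)) b (hd (D_mono le_top d hb))

omit [Nontrivial V] [Finite K] in
include h in
theorem lv_stab {d : ℕ} (hd : D ⊤ d ≤ N) {v : V} (hv : v ≠ 0) :
    Lv (MulAction.stabilizer Γ v) V (d + 1) :=
  Lv.of_le_bot fun _ hg => eq_one_of_smul (D_le_U h hd hg) hv (D_le _ _ hg)

omit [Nontrivial V] in
theorem pow_le_card_V [Finite V] {e : ℕ} (he : e ≤ Module.finrank K V) :
    Nat.card K ^ e ≤ Nat.card V := by
  rw [Module.natCard_eq_pow_finrank (K := K) (V := V)]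
  exact Nat.pow_le_pow_right Nat.card_pos he

theorem lt_card_K {r : ℕ} (h : r ∣ Nat.card Kˣ) : r < Nat.card K := by
  have h1 := Nat.le_of_dvd Nat.card_pos h
  have h2 : 0 < Nat.card K := Nat.card_pos
  rw [Nat.card_units] at h1
  omega

theorem three_le_card_K {e : ℕ} (he : e ≠ 1) (h : ∀ r, r.Prime → r ∣ e → r ∣ Nat.card Kˣ) :
    3 ≤ Nat.card K := by
  obtain ⟨r, hr, hd⟩ := Nat.exists_prime_and_dvd he
  exact hr.two_le.trans_lt (lt_card_K (h r hr hd))

end Setup

/-- A bound for the derived length of a solvable completely reducible linear group. -/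
def dd (n : ℕ) : ℕ :=
  if n ≤ 2 then 0 else if n ≤ 3 then 1 else if n ≤ 8 then 2 else if n < 64 then 4
    else if n < 4096 then 6 else 8

theorem dd_mono {m n : ℕ} (h : m ≤ n) : dd m ≤ dd n := by
  unfold dd
  split_ifs <;> omega

theorem dd_imp {w s n : ℕ} (hw : 2 ≤ w) (hs : 2 ≤ s) (h : w ^ s ≤ n) (hn : n < 65536) :
    dd s + 1 + dd w ≤ dd n := by
  have key : ∀ s < 16, ∀ w < 256, 2 ≤ w → 2 ≤ s → w ^ s < 65536 →
      dd s + 1 + dd w ≤ dd (w ^ s) := by decide +kernel
  refine (key s ?_ w ?_ hw hs (h.trans_lt hn)).trans (dd_mono h)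
  · exact (Nat.pow_lt_pow_iff_right one_lt_two).1
      (((Nat.pow_le_pow_left hw s).trans h).trans_lt hn)
  · exact lt_of_pow_lt_pow_left₀ 2 (by norm_num)
      (((Nat.pow_le_pow_right (by omega) hs).trans h).trans_lt hn)

theorem dd_prim {q e n : ℕ} (he : 2 ≤ e) (hq : 3 ≤ q) (h3 : e = 3 → 4 ≤ q) (h : q ^ e ≤ n)
    (hn : n < 65536) : dd (e * e) + 2 ≤ dd n := by
  have h1 := (Nat.pow_le_pow_left hq e).trans h
  have h2 : e < 11 := (Nat.pow_lt_pow_iff_right (by norm_num : 1 < 3)).1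
    (h1.trans_lt (hn.trans (by norm_num)))
  by_cases h4 : e = 3
  · subst h4
    exact le_trans (by decide) (dd_mono ((Nat.pow_le_pow_left (h3 rfl) 3).trans h))
  refine le_trans ?_ (dd_mono h1)
  interval_cases e <;> first | exact absurd rfl h4 | decide

theorem lv_small {G V : Type*} [Group G] [AddCommGroup V] [DistribMulAction G V] [Finite V]
    [Nontrivial V] (h : Nat.card V ≤ 3) : Lv (⊤ : Subgroup G) V (dd (Nat.card V)) := by
  have h1 : 1 < Nat.card V := Finite.one_lt_card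
  rcases (by omega : Nat.card V = 2 ∨ Nat.card V = 3) with h2 | h2
  · intro g _ v
    by_cases hv : v = 0
    · rw [hv, smul_zero]
    exact ((Nat.card_eq_two_iff' (0 : V)).1 h2).unique (by rwa [Ne, smul_eq_zero_iff_eq]) hv
  · have := Fact.mk Nat.prime_three
    rw [h2]
    exact Lv.succ fun a _ b _ => smul_comm_of_prime h2 a b

theorem lv_aux (n : ℕ) : ∀ (G V : Type u) [Group G] [Finite G] [AddCommGroup V] [Finite V]
    [DistribMulAction G V], Nat.card V = n → n < 65536 → Group.IsSolvable G → Irr G V →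
      Lv (⊤ : Subgroup G) V (dd n) := by
  induction n using Nat.strong_induction_on with
  | _ n ih =>
  intro G V _ _ _ _ _ hn hlt hG h
  have := h.1
  subst hn
  by_cases h3 : Nat.card V ≤ 3
  · exact lv_small h3
  by_cases hpr : Prim G V
  · obtain ⟨K, _, _, _, Γ, _, _, _, _, _, S, -, φ, hφ⟩ := hpr.exists_setup
    refine Lv.comp (L := ⊤) ?_ φ hφ fun _ _ => trivial
    obtain ⟨N, Ω, _, _, _, pr, B, e, hN, s, hB, h1, h2, h4, h5⟩ := exists_data S
    by_cases e1 : e = 1
    · rw [e1] at h1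
      have := (Nat.card_eq_one_iff_unique.1 h1).1
      have h6 := D_le_N hN s hB (d := 1) (fun _ _ _ => Subsingleton.elim _ _) le_rfl
      refine (Lv.of_le_bot (D_le_bot (S := S) fun g hg => (s.eq_zero g (h6 hg)).1
        (Subsingleton.elim _ _))).mono (le_trans (by decide) (dd_mono (not_le.1 h3)))
    have h6 := three_le_card_K e1 h5
    have h7 := pow_le_card_V h4
    have h8 : Nat.card Ω < Nat.card V :=
      h1 ▸ (sq_lt_three_pow e).trans_le ((Nat.pow_le_pow_left h6 e).trans h7)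
    have h9 : Lv (⊤ : Subgroup (⊤ : Subgroup Γ)) Ω (dd (e * e)) :=
      lv_of_cr (hN.symp s hB).cr fun T hT hi => by
        have a1 : Nat.card T ≤ Nat.card Ω := T.card_le_card_addGroup
        let _ := resAct hT
        exact (ih _ (a1.trans_lt h8) _ T rfl ((a1.trans_lt h8).trans hlt) inferInstance hi).mono
          (dd_mono (h1 ▸ a1))
    have h10 := D_le_N hN s hB h9 (le_trans (by decide) (dd_mono (Nat.mul_le_mul
      (by omega : 2 ≤ e) (by omega : 2 ≤ e))))
    exact (Lv.of_le_bot (D_le_bot (D_le_U hN h10))).mono (dd_prim (by omega) h6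
      (fun e3 => lt_card_K (h5 3 Nat.prime_three (e3 ▸ dvd_rfl))) h7 hlt)
  obtain ⟨H, W, W', hH, hW, hd, hout, hW0⟩ := exists_blocks h hpr
  obtain ⟨M, _, _, e, hM, he⟩ := exists_affine hG hH
  have : Finite M := Finite.of_equiv _ e
  have h1 := Nat.card_congr e
  have h2 := index_lt_card hd hout hW0
  have h4 := card_block_lt hH.1 hd hout hW0
  let _ := resAct hW
  have h5 := irr_block h hW hd hout hW0
  have h6 := lv_affine e he (ih _ h2 H M h1.symm (h2.trans hlt) inferInstance hM)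
  have h7 := ih _ h4 H W rfl (h4.trans hlt) inferInstance h5
  have := h5.1
  refine Lv.mono (fun g hg => block_triv h hW hW0 fun c =>
    step_core hW (fun g hg => h6 g hg c) (fun _ _ _ => mem_top _) h7 g hg)
    (dd_imp Finite.one_lt_card (index_core_le hG hH).1 (pow_le_card hd hout) hlt)

theorem lv_cr {G V : Type u} [Group G] [Finite G] [AddCommGroup V] [Finite V]
    [DistribMulAction G V] (hG : Group.IsSolvable G) (h : CR G V) (hV : Nat.card V < 65536) :
    Lv (⊤ : Subgroup G) V (dd (Nat.card V)) :=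
  lv_of_cr h fun T hT hi => by
    have a1 : Nat.card T ≤ Nat.card V := T.card_le_card_addGroup
    let _ := resAct hT
    exact (lv_aux _ _ T rfl (a1.trans_lt hV) hG hi).mono (dd_mono a1)

theorem lv_coatom {G : Type u} [Group G] [Finite G] (hG : Group.IsSolvable G) {H : Subgroup G}
    (hH : IsCoatom H) (h : H.index < 65536) : Lv (⊤ : Subgroup G) (G ⧸ H) (dd H.index + 1) := by
  obtain ⟨M, _, _, e, hM, he⟩ := exists_affine hG hH
  have : Finite M := Finite.of_equiv _ e
  exact lv_affine e he (lv_aux _ H M (Nat.card_congr e).symm h inferInstance hM)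

/-- A bound for the derived length of a solvable permutation group of degree at most `7`. -/
def ps (n : ℕ) : ℕ := if n ≤ 1 then 0 else if n ≤ 2 then 1 else if n ≤ 3 then 2 else 3

theorem D_le_of_index (n : ℕ) : ∀ (G : Type u) [Group G] [Finite G] (H : Subgroup G),
    Group.IsSolvable G → H.index = n → n ≤ 7 → D ⊤ (ps n) ≤ H := by
  induction n using Nat.strong_induction_on with
  | _ n ih =>
  intro G _ _ H hG hn h7
  rcases eq_top_or_exists_le_coatom H with rfl | ⟨L, hL, hle⟩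
  · exact le_top
  have h1 := relIndex_mul_index hle
  have h2 := (index_core_le hG hL).1
  have h3 : 0 < H.relIndex L := Nat.pos_of_ne_zero index_ne_zero_of_finite
  have key : ∀ s < 8, ∀ t < 8, 2 ≤ s → 0 < t → t * s ≤ 7 → dd s + 1 + ps t ≤ ps (t * s) := by
    decide
  have h4 : L.index ≤ 7 := by nlinarith
  have h5 : H.relIndex L < n := by nlinarith
  have h6 : D ⊤ (dd L.index + 1) ≤ L := fun g hg => by
    have := lv_coatom hG hL (by omega) g hg ((1 : G) : G ⧸ L)
    rwa [MulAction.Quotient.smul_mk, QuotientGroup.eq, smul_eq_mul, mul_one, mul_one,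
      inv_mem_iff] at this
  have h8 := ih _ h5 L (H.subgroupOf L) inferInstance rfl (by omega)
  refine (D_anti _ (hn ▸ h1 ▸ key _ (by omega) _ (by omega) h2 h3 (by omega))).trans ?_
  rw [D_add]
  intro g hg
  obtain ⟨k, hk, rfl⟩ := D_lift L.subtype (K := ⊤) (fun k hk => ⟨⟨k, h6 hk⟩, trivial, rfl⟩) _ g hg
  exact h8 hk

end Cfsg.Lib.VecC
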